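import Cfsg.Agent.Lib.SporRecognition.CosetCert.Upper
import Cfsg.Agent.Lib.FusionExamples.HNSub.HNSxyzC.Steps1
import Cfsg.Agent.Lib.FusionExamples.HNSub.HNSxyzC.Steps2
import Cfsg.Agent.Lib.FusionExamples.HNSub.HNSxyzC.Steps3
import Cfsg.Agent.Lib.FusionExamples.HNSub.HNSxyzC.Steps4
import Cfsg.Agent.Lib.FusionExamples.HNSub.HNSxyzC.Steps5
import Cfsg.Agent.Lib.FusionExamples.HNSub.HNSxyzC.Steps6
import Cfsg.Agent.Lib.FusionExamples.HNSub.HNSxyzC.Steps7
import Cfsg.Agent.Lib.FusionExamples.HNSub.HNSxyzC.Steps8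

/-! Generated coset-enumeration certificate: HNS over <x, y>, 352 cosets. -/

set_option autoImplicit false
set_option maxRecDepth 20000
set_option linter.all false
set_option Elab.async false

namespace CfsgLib.FusionExamples.HNSub.HNSxyzC

open CfsgLib.SporRecognition.CosetCert

theorem defs_ok_c0 : allPow 39411 (defStep inv fact) 12 0 = true := by decide +kernel
theorem defs_ok_c1 : allPow 39411 (defStep inv fact) 12 4096 = true := by decide +kernel
theorem defs_ok_c2 : allPow 39411 (defStep inv fact) 12 8192 = true := by decide +kernel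
theorem defs_ok_c3 : allPow 39411 (defStep inv fact) 12 12288 = true := by decide +kernel
theorem defs_ok_c4 : allPow 39411 (defStep inv fact) 12 16384 = true := by decide +kernel
theorem defs_ok_c5 : allPow 39411 (defStep inv fact) 12 20480 = true := by decide +kernel
theorem defs_ok_c6 : allPow 39411 (defStep inv fact) 12 24576 = true := by decide +kernel
theorem defs_ok_c7 : allPow 39411 (defStep inv fact) 12 28672 = true := by decide +kernel
theorem defs_ok_c8 : allPow 39411 (defStep inv fact) 12 32768 = true := by decide +kernel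
theorem defs_ok_c9 : allPow 39411 (defStep inv fact) 12 36864 = true := by decide +kernel
theorem defs_ok : allBelow 16 39411 (defStep inv fact) = true :=
  allBelow_of_upto (hi := 40960)
    (Upto.trans (mid := 20480) (Upto.trans (mid := 8192) (Upto.trans (mid := 4096) ((Upto.of_pow defs_ok_c0 (Nat.le_refl _)) : Upto _ _ 0 (0 + 2 ^ 12))
    ((Upto.of_pow defs_ok_c1 (Nat.le_refl _)) : Upto _ _ 4096 (4096 + 2 ^ 12)))
    (Upto.trans (mid := 12288) ((Upto.of_pow defs_ok_c2 (Nat.le_refl _)) : Upto _ _ 8192 (8192 + 2 ^ 12))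
    (Upto.trans (mid := 16384) ((Upto.of_pow defs_ok_c3 (Nat.le_refl _)) : Upto _ _ 12288 (12288 + 2 ^ 12))
    ((Upto.of_pow defs_ok_c4 (Nat.le_refl _)) : Upto _ _ 16384 (16384 + 2 ^ 12)))))
    (Upto.trans (mid := 28672) (Upto.trans (mid := 24576) ((Upto.of_pow defs_ok_c5 (Nat.le_refl _)) : Upto _ _ 20480 (20480 + 2 ^ 12))
    ((Upto.of_pow defs_ok_c6 (Nat.le_refl _)) : Upto _ _ 24576 (24576 + 2 ^ 12)))
    (Upto.trans (mid := 32768) ((Upto.of_pow defs_ok_c7 (Nat.le_refl _)) : Upto _ _ 28672 (28672 + 2 ^ 12))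
    (Upto.trans (mid := 36864) ((Upto.of_pow defs_ok_c8 (Nat.le_refl _)) : Upto _ _ 32768 (32768 + 2 ^ 12))
    ((Upto.of_pow defs_ok_c9 (Nat.le_refl _)) : Upto _ _ 36864 (36864 + 2 ^ 12))))))
    (by decide) (by decide)

theorem final1 : allBelow 9 352 (finalStep fact node item1 T1 100865 1 352) = true := by decide +kernel

theorem final2 : allBelow 9 352 (finalStep fact node item2 T2 100865 2 352) = true := by decide +kernel

theorem final3 : allBelow 9 352 (finalStep fact node item3 T3 100865 3 352) = true := by decide +kernel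

theorem final4 : allBelow 9 352 (finalStep fact node item4 T4 100865 4 352) = true := by decide +kernel

theorem final5 : allBelow 9 352 (finalStep fact node item5 T5 100865 5 352) = true := by decide +kernel

theorem final6 : allBelow 9 352 (finalStep fact node item6 T6 100865 6 352) = true := by decide +kernel

theorem relW_one : ∀ w ∈ relW, evalW (PresentedGroup.of (rels := (Cfsg.Spor.coxRelators CfsgLib.FusionExamples.HNSub.edges ∪ {r | r ∈ CfsgLib.FusionExamples.HNSub.extra}))) w = 1 := by
  have h : coxW CfsgLib.FusionExamples.HNSub.edges pairs extraW = relW := by decide +kernel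
  rw [← h]
  exact coxW_eq_one (by decide +kernel) rfl

noncomputable def tabU : Cfsg.Spor.HN.Gen → Nat → Nat := fun a => tabs a true

theorem sect : ∃ s : Nat → PresentedGroup (Cfsg.Spor.coxRelators CfsgLib.FusionExamples.HNSub.edges ∪ {r | r ∈ CfsgLib.FusionExamples.HNSub.extra}) ⧸ wordSubgroup (Cfsg.Spor.coxRelators CfsgLib.FusionExamples.HNSub.edges ∪ {r | r ∈ CfsgLib.FusionExamples.HNSub.extra}) subW,
    s 0 = ((1 : PresentedGroup (Cfsg.Spor.coxRelators CfsgLib.FusionExamples.HNSub.edges ∪ {r | r ∈ CfsgLib.FusionExamples.HNSub.extra})) : PresentedGroup (Cfsg.Spor.coxRelators CfsgLib.FusionExamples.HNSub.edges ∪ {r | r ∈ CfsgLib.FusionExamples.HNSub.extra}) ⧸ wordSubgroup (Cfsg.Spor.coxRelators CfsgLib.FusionExamples.HNSub.edges ∪ {r | r ∈ CfsgLib.FusionExamples.HNSub.extra}) subW) ∧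
    ∀ a ∈ ([.x, .y, .z] : List Cfsg.Spor.HN.Gen), ∀ u, u < 352 → tabU a u < 352 ∧
      (PresentedGroup.of (rels := (Cfsg.Spor.coxRelators CfsgLib.FusionExamples.HNSub.edges ∪ {r | r ∈ CfsgLib.FusionExamples.HNSub.extra})) a) • s u = s (tabU a u) :=
  section_of_checks invols relW relW_one (by decide +kernel) subW lets data rtriv rroot 16 18 rfl rfl
    (by decide +kernel) (by decide +kernel) (fun k hk => allBelow_spec defs_ok k hk) (covers1.trans (covers2.trans (covers3.trans (covers4.trans (covers5.trans (covers6.trans (covers7.trans (covers8)))))))) (by decide +kernel)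
    (by
      intro i hi u hu
      have hi' : i < 6 := hi
      interval_cases i
      · exact allBelow_spec final1 u hu
      · exact allBelow_spec final2 u hu
      · exact allBelow_spec final3 u hu
      · exact allBelow_spec final4 u hu
      · exact allBelow_spec final5 u hu
      · exact allBelow_spec final6 u hu
      ) [.x, .y, .z] tabU (by
      intro a ha
      fin_cases ha
      · exact ⟨0, by decide, rfl, rfl⟩
      · exact ⟨2, by decide, rfl, rfl⟩
      · exact ⟨4, by decide, rfl, rfl⟩
      )

end CfsgLib.FusionExamples.HNSub.HNSxyzC
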